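import Cfsg.Agent.KM.Tor.Cnt

/-!
# KM, counting contributions: `p = 3`, elementary abelian inertial quotient of order `8`, rank at most `3` (helper29)

`count8` (the count in an abelian group), `hz_eight`.
-/

set_option autoImplicit false
set_option linter.unusedSectionVars false

namespace Cfsg.Agent.KM.Tor

open Cfsg Subgroup Cfsg.Agent.TO Cfsg.Agent.TO.Cn

universe u

namespace C8

/-- the acting group and its dual -/
abbrev V : Type := Fin 3 → ZMod 2

/-- the pairing -/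
def ch (e d : V) : ℤ := if e 0 * d 0 + e 1 * d 1 + e 2 * d 2 = 0 then 1 else -1

theorem ch_add : ∀ e d d', ch e (d + d') = ch e d * ch e d' := by decide +kernel

theorem ch_or : ∀ e d, ch e d = 1 ∨ ch e d = -1 := by decide +kernel

theorem sum_ch : ∀ e e', ∑ d, ch e d * ch e' d = if e = e' then 8 else 0 := by decide +kernel

theorem sum_ch' : ∀ d, ∑ e, ch e d = if d = 0 then 8 else 0 := by decide +kernel

theorem add_add : ∀ d d' : V, d + (d + d') = d' := by decide +kernel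

/-- the order of the common kernel -/
def sg (S : Finset V) : ℕ := (Finset.univ.filter fun d => ∀ e ∈ S, ch e d = 1).card

theorem key : ∀ L : Finset V, L.card ≤ 3 → sg L = 1 → ∀ S ∈ L.powerset,
    (∏ e ∈ L, if e ∈ S then (1 : ℤ) else -2) + 8 ≤ (sg S * 3 ^ if sg S = 1 then 2 else 1 : ℕ) ∧
      (∏ _e ∈ L, (-2 : ℤ)) + 8 < (sg ∅ * 3 ^ if sg ∅ = 1 then 2 else 1 : ℕ) := by decide +kernel

variable {A : Type*} [AddCommGroup A] (t : V → A →+ A)

/-- the eigenspaces -/
def Eig (e : V) : AddSubgroup A where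
  carrier := {a | ∀ d, t d a = ch e d • a}
  zero_mem' d := by rw [map_zero, smul_zero]
  add_mem' ha hb d := by rw [map_add, ha d, hb d, smul_add]
  neg_mem' ha d := by rw [map_neg, ha d, smul_neg]

/-- the projections -/
def pr (e : V) (a : A) : A := ∑ d, ch e d • t d a

variable {t}

theorem pr_sum (e : V) (x : ∀ e, Eig t e) : pr t e (∑ e', (x e' : A)) = (8 : ℤ) • (x e : A) := by
  simp only [pr, map_sum, Finset.smul_sum]
  rw [Finset.sum_comm, Finset.sum_congr rfl fun e' _ => (by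
    rw [Finset.sum_congr rfl fun d _ => by rw [(x e').2 d, smul_smul], ← Finset.sum_smul, sum_ch, ite_smul, zero_smul] :
      ∑ d, ch e d • t d (x e') = if e = e' then (8 : ℤ) • (x e' : A) else 0), Finset.sum_ite_eq, if_pos (Finset.mem_univ _)]

theorem pr_mem (hadd : ∀ d d' a, t (d + d') a = t d (t d' a)) (e : V) (a : A) : pr t e a ∈ Eig t e := fun s => by
  rw [pr, map_sum, Finset.smul_sum]
  refine Fintype.sum_equiv (Equiv.addLeft s) _ _ fun d => ?_
  rw [Equiv.coe_addLeft, map_zsmul, hadd, smul_smul, ← ch_add, add_add]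

theorem sum_pr (h0 : ∀ a, t 0 a = a) (a : A) : ∑ e, pr t e a = (8 : ℤ) • a := by
  simp only [pr]
  rw [Finset.sum_comm, Finset.sum_congr rfl fun d _ => by rw [← Finset.sum_smul, sum_ch', ite_smul, zero_smul],
    Finset.sum_ite_eq', if_pos (Finset.mem_univ _), h0]

theorem two_inj (h3 : ∀ a : A, ∃ k : ℕ, 3 ^ k • a = 0) {a : A} (h : (2 : ℤ) • a = 0) : a = 0 := by
  obtain ⟨k, hk⟩ := h3 a
  obtain ⟨j, hj⟩ : Odd (3 ^ k) := Odd.pow (by decide)
  rw [hj, add_smul, one_smul, mul_comm, mul_smul, show (2 : ℕ) • a = 0 by rw [← h, two_smul, two_smul], smul_zero,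
    zero_add] at hk
  exact hk

theorem eight_inj (h3 : ∀ a : A, ∃ k : ℕ, 3 ^ k • a = 0) {a : A} (h : (8 : ℤ) • a = 0) : a = 0 :=
  two_inj h3 (two_inj h3 (two_inj h3 (by rw [smul_smul, smul_smul]; exact h)))

theorem exists_three (h3 : ∀ a : A, ∃ k : ℕ, 3 ^ k • a = 0) {a : A} (h : a ≠ 0) : ∃ j : ℕ, j • a ≠ 0 ∧ 3 • j • a = 0 := by
  classical
  have h1 := Nat.find_spec (h3 a)
  obtain ⟨k, hk⟩ := Nat.exists_eq_add_one_of_ne_zero (n := Nat.find (h3 a)) fun e => h (by rwa [e, pow_zero, one_smul] at h1)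
  exact ⟨3 ^ k, Nat.find_min (h3 a) (by omega), by rwa [hk, pow_succ', mul_smul] at h1⟩

theorem three_le {B : Type*} [AddCommGroup B] [Finite B] (h3 : ∀ a : B, ∃ k : ℕ, 3 ^ k • a = 0) {a : B} (h : a ≠ 0) :
    3 ≤ Nat.card {x : B // 3 • x = 0} := by
  obtain ⟨j, h1, h2⟩ := exists_three h3 h
  have h4 : j • a ≠ -(j • a) := fun e => h1 (two_inj h3 (by rw [two_smul]; exact add_eq_zero_iff_eq_neg.2 e))
  have := Fintype.ofFinite {x : B // 3 • x = 0}
  rw [Nat.card_eq_fintype_card]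
  exact Fintype.two_lt_card_iff.2 ⟨⟨0, smul_zero _⟩, ⟨j • a, h2⟩, ⟨-(j • a), by rw [smul_neg, h2, neg_zero]⟩,
    fun e => h1 (congrArg Subtype.val e).symm, fun e => h1 (neg_eq_zero.1 (congrArg Subtype.val e).symm),
    fun e => h4 (congrArg Subtype.val e)⟩

/-- **the count** -/
theorem count8 [Fintype A] (h0 : ∀ a, t 0 a = a) (hadd : ∀ d d' a, t (d + d') a = t d (t d' a))
    (hf : ∀ d, (∀ a, t d a = a) → d = 0) (h3 : ∀ a : A, ∃ k : ℕ, 3 ^ k • a = 0) (hr : Nat.card {a : A // 3 • a = 0} ≤ 27) :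
    8 * Nat.card A < ∑ a : A, wz 3 (Nat.card {d // t d a = a}) := by
  classical
  have hi : Function.Injective fun x : ∀ e, Eig t e => ∑ e, (x e : A) := fun x y h => funext fun e => Subtype.ext
    (sub_eq_zero.1 (eight_inj h3 (by rw [smul_sub, ← pr_sum, ← pr_sum, show ∑ e, (x e : A) = ∑ e, (y e : A) from h, sub_self])))
  have hs : Function.Surjective fun x : ∀ e, Eig t e => ∑ e, (x e : A) := fun a => by
    obtain ⟨b, rfl⟩ := (Finite.injective_iff_surjective (f := fun a : A => (8 : ℤ) • a)).1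
      (fun x y (h : (8 : ℤ) • x = (8 : ℤ) • y) => sub_eq_zero.1 (eight_inj h3 (by rw [smul_sub, h, sub_self]))) a
    exact ⟨fun e => ⟨_, pr_mem hadd e b⟩, sum_pr h0 b⟩
  have h3' : ∀ (e : V) (a : Eig t e), ∃ k : ℕ, 3 ^ k • a = 0 := fun e a => (h3 a).imp fun k hk => Subtype.ext hk
  have hfix : ∀ (x : ∀ e, Eig t e) (d : V), t d (∑ e, (x e : A)) = ∑ e, (x e : A) ↔
      ∀ e ∈ Finset.univ.filter fun e => x e ≠ 0, ch e d = 1 := fun x d => by
    rw [map_sum, Finset.sum_congr rfl fun e _ => (x e).2 d]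
    refine ⟨fun h e he => (ch_or e d).resolve_right fun h1 => (Finset.mem_filter.1 he).2 (two_inj (h3' e) ?_), fun h =>
      Finset.sum_congr rfl fun e _ => ?_⟩
    · have h2 := congrFun (hi (a₁ := fun e => ch e d • x e) (a₂ := x) h) e
      rw [h1, neg_one_smul] at h2
      rw [two_smul, add_eq_zero_iff_eq_neg, h2]
    · by_cases he : x e = 0
      · rw [he, AddSubgroup.coe_zero, smul_zero]
      · rw [h e (Finset.mem_filter.2 ⟨Finset.mem_univ _, he⟩), one_smul]
  obtain ⟨L, hL⟩ : ∃ L : Finset V, ∀ e, e ∈ L ↔ ∃ a : Eig t e, a ≠ 0 := 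
    ⟨Finset.univ.filter fun e => ∃ a : Eig t e, a ≠ 0, fun e => Finset.mem_filter.trans (and_iff_right (Finset.mem_univ _))⟩
  have hL3 : L.card ≤ 3 := by
    have h1 : Nat.card (∀ e, {x : Eig t e // 3 • x = 0}) ≤ 27 := (Nat.card_le_card_of_injective
      (fun x => (⟨∑ e, ((x e).1 : A), by
        rw [Finset.smul_sum]
        exact Finset.sum_eq_zero fun e _ => congrArg Subtype.val (x e).2⟩ : {a : A // 3 • a = 0}))
      fun x y h => funext fun e => Subtype.ext
        (congrFun (hi (a₁ := fun e => (x e).1) (a₂ := fun e => (y e).1) (congrArg Subtype.val h)) e)).trans hr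
    rw [Nat.card_pi] at h1
    refine (Nat.pow_le_pow_iff_right (show 1 < 3 by decide)).1 (le_trans ?_ h1)
    rw [← Finset.prod_const]
    refine (Finset.prod_le_prod' fun e he => ?_).trans (Finset.prod_le_prod_of_subset_of_one_le' (Finset.subset_univ L)
      fun e _ _ => Nat.card_pos_iff.2 ⟨⟨⟨0, smul_zero _⟩⟩, inferInstance⟩)
    obtain ⟨a, ha⟩ := (hL e).1 he
    exact three_le (h3' e) ha
  have hsub : ∀ x : ∀ e, Eig t e, (Finset.univ.filter fun e => x e ≠ 0) ∈ L.powerset := fun x =>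
    Finset.mem_powerset.2 fun e he => (hL e).2 ⟨_, (Finset.mem_filter.1 he).2⟩
  have hL1 : sg L = 1 := Finset.card_eq_one.2 ⟨0, Finset.eq_singleton_iff_unique_mem.2 ⟨Finset.mem_filter.2
    ⟨Finset.mem_univ _, fun e _ => by simp [ch]⟩, fun d hd => hf d fun a => by
      obtain ⟨x, rfl⟩ := hs a
      exact (hfix x d).2 fun e he => (Finset.mem_filter.1 hd).2 e (Finset.mem_powerset.1 (hsub x) he)⟩⟩
  have hst : ∀ x : ∀ e, Eig t e, Nat.card {d // t d (∑ e, (x e : A)) = ∑ e, (x e : A)} =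
      sg (Finset.univ.filter fun e => x e ≠ 0) := fun x => by
    rw [Nat.card_eq_fintype_card, Fintype.card_subtype]
    exact congrArg Finset.card (Finset.filter_congr fun d _ => hfix x d)
  have hu : ∀ x : ∀ e, Eig t e, (∏ e, if e ∈ L then if x e ≠ 0 then (1 : ℤ) else -2 else 1) =
      ∏ e ∈ L, if e ∈ Finset.univ.filter fun e => x e ≠ 0 then (1 : ℤ) else -2 := fun x => by
    rw [Finset.prod_ite_mem, Finset.univ_inter]
    exact Finset.prod_congr rfl fun e _ => by simp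
  have h1 : 0 ≤ ∑ x : ∀ e, Eig t e, ∏ e, if e ∈ L then if x e ≠ 0 then (1 : ℤ) else -2 else 1 := by
    rw [← Fintype.piFinset_univ, ← Finset.prod_univ_sum (fun _ => Finset.univ)
      fun e (a : Eig t e) => if e ∈ L then if a ≠ 0 then (1 : ℤ) else -2 else 1]
    refine Finset.prod_nonneg fun e _ => ?_
    by_cases he : e ∈ L
    · obtain ⟨a, ha⟩ := (hL e).1 he
      have h2 := (three_le (h3' e) ha).trans (Nat.card_le_card_of_injective _ Subtype.val_injective)
      rw [Finset.sum_congr rfl (g := fun a => 1 - if a = 0 then 3 else 0) fun a _ => by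
        rw [if_pos he]; split_ifs <;> simp_all, Finset.sum_sub_distrib, Finset.sum_ite_eq', if_pos (Finset.mem_univ _),
        Finset.sum_const, Finset.card_univ, ← Nat.card_eq_fintype_card, nsmul_eq_mul]
      omega
    · exact Finset.sum_nonneg fun a _ => by rw [if_neg he]; decide
  rw [← (Equiv.ofBijective _ ⟨hi, hs⟩).sum_comp, ← Nat.card_congr (Equiv.ofBijective _ ⟨hi, hs⟩)]
  have h2 := Finset.sum_lt_sum (s := Finset.univ)
    (f := fun x : ∀ e, Eig t e => (∏ e, if e ∈ L then if x e ≠ 0 then (1 : ℤ) else -2 else 1) + 8)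
    (g := fun x => (wz 3 (Nat.card {d // t d (∑ e, (x e : A)) = ∑ e, (x e : A)}) : ℕ))
    (fun x _ => by rw [hst, hu]; exact (key L hL3 hL1 _ (hsub x)).1) ⟨0, Finset.mem_univ _, by
      rw [hst, hu, show (Finset.univ.filter fun e => (0 : ∀ e, Eig t e) e ≠ 0) = ∅ by simp]
      exact (key L hL3 hL1 _ (Finset.empty_mem_powerset L)).2⟩
  rw [Finset.sum_add_distrib, Finset.sum_const, Finset.card_univ, ← Nat.card_eq_fintype_card, nsmul_eq_mul,
    ← Nat.cast_sum] at h2
  refine lt_of_lt_of_eq (?_ : _ < ∑ x : ∀ e, Eig t e, wz 3 (Nat.card {d // t d (∑ e, (x e : A)) = ∑ e, (x e : A)})) rfl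
  omega

end C8

variable {G : Type u} [Group G] [Finite G] {M : Ideal AlgInt} {b : Set (IrrCharacter G)} {D : Subgroup G} {θ : G → ℂ}

/-- **`p = 3`, elementary abelian inertial quotient of order `8`, rank at most `3`** -/
theorem hz_eight (h : Can 3 M b D θ) (he : (Ce D).relIndex (In D θ) = 8) (h2 : ∀ t ∈ In D θ, t ^ 2 ∈ Ce D)
    (hr : Nat.card {d : D // d ^ 3 = 1} ≤ 27) : ∀ χ ∈ b, blockHeight 3 b (χ : G → ℂ) = 0 := by
  have : Fact (Nat.Prime 3) := ⟨Nat.prime_three⟩
  have := Fintype.ofFinite D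
  have hN : In D θ ≤ normalizer (D : Set G) := fun t ht => mem_normalizer_iff.2 fun y => ((mem_In.1 ht).1 y).symm
  obtain ⟨ρ, hρ⟩ : ∃ ρ : In D θ →* MulAut D, ∀ (t : In D θ) (d : D), (ρ t d : G) = t * d * (t : G)⁻¹ :=
    ⟨D.normalizerMonoidHom.comp (inclusion hN), fun _ _ => rfl⟩
  have hk : ρ.ker = (Ce D).subgroupOf (In D θ) := Subgroup.ext fun t => by
    rw [MonoidHom.mem_ker, mem_subgroupOf, mem_centralizer_iff]
    refine ⟨fun e d hd => ?_, fun e => MulEquiv.ext fun d => Subtype.ext ?_⟩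
    · have h1 := hρ t ⟨d, hd⟩
      rw [e] at h1
      exact eq_mul_inv_iff_mul_eq.1 h1
    · rw [hρ, ← e d d.2, mul_inv_cancel_right]
      rfl
  have h8 : Nat.card ρ.range = 2 ^ 3 := by rw [← index_ker, hk]; exact he
  have hsq : ∀ x : ρ.range, x * x = 1 := by
    rintro ⟨_, t, rfl⟩
    exact Subtype.ext ((map_mul ρ t t).symm.trans (MonoidHom.mem_ker.1 (hk ▸ mem_subgroupOf.2 (show (t : G) * t ∈ _ from sq (t : G) ▸ h2 t t.2))))
  obtain ⟨e⟩ : Nonempty (C8.V ≃+ Additive ρ.range) := by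
    let _ : CommGroup ρ.range := { (inferInstance : Group ρ.range) with
      mul_comm := fun x y => by
        rw [← inv_eq_of_mul_eq_one_right (hsq (x * y)), mul_inv_rev, inv_eq_of_mul_eq_one_right (hsq x),
          inv_eq_of_mul_eq_one_right (hsq y)] }
    let _ : Module (ZMod 2) (Additive ρ.range) := AddCommGroup.zmodModule fun x => by rw [two_nsmul]; exact hsq x.toMul
    have h1 : Nat.card (Additive ρ.range) = Nat.card (ZMod 2) ^ Module.finrank (ZMod 2) (Additive ρ.range) :=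
      Module.natCard_eq_pow_finrank
    rw [Nat.card_zmod, show Nat.card (Additive ρ.range) = 2 ^ 3 from h8] at h1
    exact ⟨(Module.finBasisOfFinrankEq (ZMod 2) _ (Nat.pow_right_injective le_rfl h1).symm).equivFun.symm.toAddEquiv⟩
  let _ : CommGroup D := { (inferInstance : Group D) with mul_comm := fun x y => Subtype.ext (h.comm _ x.2 _ y.2) }
  have h1 := C8.count8 (A := Additive D) (t := fun d => MonoidHom.toAdditive ((e d).toMul.1 : MulAut D).toMonoidHom)
    (fun a => by rw [map_zero]; rfl) (fun d d' a => by rw [map_add]; rfl)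
    (fun d hd => e.injective ((Subtype.ext (MulEquiv.ext hd) : (e d).toMul = 1).trans (map_zero e).symm))
    (fun a => h.pg a.toMul) hr
  refine hz_of_lt h (he ▸ h1.trans_eq (Fintype.sum_equiv Additive.toMul _ _ fun z => congrArg (wz 3) ?_))
  rw [st, ← relIndex_subgroupOf (inf_le_left : In D θ ⊓ Cu (z.toMul : G) ≤ _), ← hk, relIndex_ker]
  refine Nat.card_congr (Equiv.ofBijective (fun d => ⟨(e d.1).toMul.1, ?_⟩) ⟨fun d d' h => ?_, ?_⟩)
  · obtain ⟨t, ht⟩ := (e d.1).toMul.2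
    refine ⟨t, mem_subgroupOf.2 ⟨t.2, mem_centralizer_singleton_iff.2 (mul_inv_eq_iff_eq_mul.1 ?_)⟩, ht⟩
    rw [← hρ, ht]
    exact congrArg Subtype.val d.2
  · have h3 := congrArg Subtype.val h
    exact Subtype.ext (e.injective (Subtype.ext h3))
  · rintro ⟨_, t, ht, rfl⟩
    refine ⟨⟨e.symm (.ofMul ⟨ρ t, t, rfl⟩), ?_⟩, Subtype.ext ?_⟩
    · rw [e.apply_symm_apply]
      exact Subtype.ext ((hρ t z.toMul).trans (mul_inv_eq_iff_eq_mul.2 (mem_centralizer_singleton_iff.1 ht.2)))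
    · simp only [e.apply_symm_apply]
      rfl

end Cfsg.Agent.KM.Tor
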